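import Cfsg.Agent.AutPSL.Coset
import Cfsg.Agent.AutPSL.Unique
import Cfsg.Agent.AutPSL.Decomposition
import Cfsg.Agent.AutPSL.FixedField
import Cfsg.Agent.AutPSL.GraphField
import Cfsg.Agent.LocalBalance.Small
import Cfsg.Agent.LocalBalance.Fix
import Cfsg.Agent.AutPSU.Basic
import Cfsg.Agent.SLn.Simple
set_option autoImplicit false

/-!
Local balance for the automorphisms of `PSL_n(q)` outside the inner-diagonal group.
-/

namespace CfsgLib.AutPSL

open Matrix CfsgLib.Rigid
open scoped LinearAlgebra.Projectivization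

variable {F : Type*} [Field F] {n : ℕ}

local notation "PSL'" => ProjectiveSpecialLinearGroup (Fin n) F
local notation "SLn'" => SpecialLinearGroup (Fin n) F

theorem conj_injective' (hn : 2 ≤ n) : Function.Injective (MulAut.conj : PSL' →* MulAut PSL') := by
  rw [injective_iff_map_eq_one]
  intro x hx
  obtain ⟨h, rfl⟩ := proj_surjective x
  rw [← conjPSL_toGL] at hx
  obtain ⟨a, ha⟩ := (conjPSL_eq_one_iff hn).1 hx
  refine proj_eq_one_iff.2 (Subgroup.mem_center_iff.2 fun B => Subtype.ext ?_)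
  change B.1 * h.1 = h.1 * B.1
  rw [show h.1 = a • (1 : Matrix (Fin n) (Fin n) F) from ha, Matrix.mul_smul, Matrix.smul_mul, Matrix.mul_one,
    Matrix.one_mul]

theorem conj_mem_range (k : PSL') : MulAut.conj k ∈ (conjPSL (F := F) (n := n)).range := inn_le_range ⟨k, rfl⟩

theorem conjPSL_eq_iff' (hn : 2 ≤ n) {g h : GL (Fin n) F} :
    conjPSL g = (conjPSL h : MulAut PSL') ↔ ∃ c : F, g.1 = c • h.1 := by
  refine ⟨fun e => ?_, fun ⟨c, e⟩ => conjPSL_eq_of_smul e⟩
  obtain ⟨c, hc⟩ := (conjPSL_eq_one_iff hn).1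
    (show conjPSL (h⁻¹ * g) = (1 : MulAut PSL') by rw [map_mul, map_inv, e, inv_mul_cancel])
  refine ⟨c, ?_⟩
  calc g.1 = h.1 * (h⁻¹ * g).1 := by rw [← Units.val_mul, mul_inv_cancel_left]
    _ = c • h.1 := by rw [hc, Matrix.mul_smul, Matrix.mul_one]

/-- A decomposition without graph part in dimension two. -/
theorem exists_decomposition'' [Finite F] (hn : 2 ≤ n) (α : MulAut PSL') :
    ∃ (g : GL (Fin n) F) (σ : RingAut F) (b : Bool), α = conjPSL g * fieldPSL σ * graphIf b ∧ (n = 2 → b = false) := by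
  haveI : NeZero n := ⟨by omega⟩
  rcases (show n = 2 ∨ 3 ≤ n by omega) with rfl | h3
  · obtain ⟨g, σ, h⟩ := CfsgLib.SL2.exists_decomposition α
    refine ⟨g, σ, false, ?_, fun _ => rfl⟩
    rw [h, graphIf_false, mul_one, conjPSL_eq_sl2, fieldPSL_eq_sl2]
  · obtain ⟨g, σ, b, h⟩ := exists_decomposition h3 α
    exact ⟨g, σ, b, h, fun h2 => absurd h2 (by omega)⟩

theorem semi_of_commute (hn : 2 ≤ n) {a X : GL (Fin n) F} {σ : RingAut F}
    (h : conjPSL a * fieldPSL σ * conjPSL X = conjPSL X * (conjPSL a * fieldPSL σ : MulAut PSL')) :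
    ∃ c : F, a.1 * X.1.map σ = c • (X.1 * a.1) := by
  rw [mul_assoc, fieldPSL_mul_conjPSL, ← mul_assoc, ← map_mul, ← mul_assoc, ← map_mul] at h
  obtain ⟨c, hc⟩ := (conjPSL_eq_iff' hn).1 (mul_right_cancel h)
  exact ⟨c, hc⟩

theorem semi_of_commute2 (hn : 2 ≤ n) {a X Y : GL (Fin n) F} {σ : RingAut F}
    (h : conjPSL a * fieldPSL σ * conjPSL Y = conjPSL X * (conjPSL a * fieldPSL σ : MulAut PSL')) :
    ∃ c : F, a.1 * Y.1.map σ = c • (X.1 * a.1) := by
  rw [mul_assoc, fieldPSL_mul_conjPSL, ← mul_assoc, ← map_mul, ← mul_assoc, ← map_mul] at h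
  obtain ⟨c, hc⟩ := (conjPSL_eq_iff' hn).1 (mul_right_cancel h)
  exact ⟨c, hc⟩

theorem semi_of_commute_graph (hn : 2 ≤ n) {a X : GL (Fin n) F} {σ : RingAut F}
    (h : conjPSL a * fieldPSL σ * graphPSL * conjPSL X =
      conjPSL X * (conjPSL a * fieldPSL σ * graphPSL : MulAut PSL')) :
    ∃ c : F, a.1 * ((X⁻¹ : GL (Fin n) F).1ᵀ).map σ = c • (X.1 * a.1) := by
  rw [mul_assoc _ graphPSL, graphPSL_mul_conjPSL, ← mul_assoc, ← mul_assoc (conjPSL X)] at h
  obtain ⟨c, hc⟩ := semi_of_commute2 hn (mul_right_cancel h)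
  exact ⟨c, hc⟩

/-- The product of two automorphisms with a graph part. -/
theorem graph_mul_graph (a g : GL (Fin n) F) (σ τ : RingAut F) :
    (conjPSL a * fieldPSL σ * graphPSL) * (conjPSL g * fieldPSL τ * graphPSL) =
      (conjPSL (a * fieldGL σ (graphGL g)) * fieldPSL (σ * τ) : MulAut PSL') := by
  calc (conjPSL a * fieldPSL σ * graphPSL) * (conjPSL g * fieldPSL τ * graphPSL)
      = conjPSL a * fieldPSL σ * (graphPSL * conjPSL g) * (fieldPSL τ * graphPSL) := by group
    _ = conjPSL a * fieldPSL σ * (conjPSL (graphGL g) * graphPSL) * (graphPSL * fieldPSL τ) := by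
        rw [graphPSL_mul_conjPSL, graphPSL_mul_fieldPSL]
    _ = conjPSL a * (fieldPSL σ * conjPSL (graphGL g)) * (graphPSL * graphPSL) * fieldPSL τ := by group
    _ = _ := by
        rw [fieldPSL_mul_conjPSL, graphPSL_mul_self, mul_one, map_mul, map_mul]
        group

/-- Scalars of square one. -/
theorem card_dvd_two_of_scalars {X : Type*} [Group X] [Finite X] (K : Subgroup X) (c : K → F)
    (hc : ∀ y, c y = 1 ∨ c y = -1) (hinj : Function.Injective c) : Nat.card K ∣ 2 := by
  classical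
  have hle : Nat.card K ≤ 2 := by
    have hinj' : Function.Injective fun y : K => decide (c y = 1) := by
      intro y y' e
      refine hinj ?_
      rcases hc y with e1 | e1 <;> rcases hc y' with e2 | e2 <;> first
        | (rw [e1, e2]; done)
        | (by_cases hne : (-1 : F) = 1
           · rw [e1, e2, hne]
           · exfalso; simp [e1, e2, hne] at e)
    simpa using Nat.card_le_card_of_injective _ hinj'
  have := Nat.card_pos (α := K)
  interval_cases (Nat.card K) <;> simp

theorem exists_dot_zero {F : Type*} [Field F] {n : ℕ} (hn : 2 ≤ n) (v : Fin n → F) (hv : v ≠ 0) :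
    ∃ φ : Fin n → F, φ ≠ 0 ∧ φ ⬝ᵥ v = 0 := by
  classical
  obtain ⟨j, hj⟩ : ∃ j, v j ≠ 0 := by
    by_contra hno
    push Not at hno
    exact hv (funext hno)
  haveI : Nontrivial (Fin n) := Fin.nontrivial_iff_two_le.2 hn
  obtain ⟨i, hi⟩ := exists_ne j
  refine ⟨Pi.single i (v j) - Pi.single j (v i), fun h0 => ?_, ?_⟩
  · have := congrFun h0 i
    simp [hi, hj] at this
  · rw [sub_dotProduct, single_dotProduct, single_dotProduct]; ring

/-! ### Automorphisms of field type -/

section FieldType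

variable [Fintype F] {F₀ : Type*} [Field F₀] [Fintype F₀] {τ : RingAut F} {ι : F₀ →+* F}

/-- `SL_n(q₀)` inside the automorphism group. -/
noncomputable def subL (ι : F₀ →+* F) (n : ℕ) :
    SpecialLinearGroup (Fin n) F₀ →* MulAut (ProjectiveSpecialLinearGroup (Fin n) F) :=
  conjPSL.comp ((mapGL ι).comp SpecialLinearGroup.toGL)

omit [Fintype F] [Fintype F₀] in
theorem subL_inn (s : SpecialLinearGroup (Fin n) F₀) : ∃ k : PSL', MulAut.conj k = subL ι n s :=
  ⟨proj (SpecialLinearGroup.map ι s), by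
    rw [← conjPSL_toGL]
    exact congrArg conjPSL (Units.ext rfl)⟩

omit [Fintype F₀] in
theorem subL_commute (hn : 2 ≤ n) (hι : ∀ c, τ c = c ↔ c ∈ Set.range ι) (s : SpecialLinearGroup (Fin n) F₀) :
    subL ι n s * fieldPSL τ = fieldPSL τ * subL ι n s :=
  (conjPSL_commute_fieldPSL_iff hn _ τ).mpr ⟨1, by rw [one_smul]; exact congrArg Units.val (fieldGL_mapGL hι _)⟩

omit [Fintype F] [Fintype F₀] in
theorem subL_eq_one_iff (hn : 2 ≤ n) (s : SpecialLinearGroup (Fin n) F₀) :
    subL ι n s = 1 ↔ s ∈ Subgroup.center (SpecialLinearGroup (Fin n) F₀) := by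
  constructor
  · intro h
    obtain ⟨a, ha⟩ := (conjPSL_eq_one_iff hn).1 h
    have he : ∀ i k, ι (s.1 i k) = (a • (1 : Matrix (Fin n) (Fin n) F)) i k :=
      fun i k => congrFun (congrFun ha i) k
    let i₀ : Fin n := ⟨0, by omega⟩
    have hs : s.1 = s.1 i₀ i₀ • (1 : Matrix (Fin n) (Fin n) F₀) := Matrix.ext fun i k => ι.injective (by
      rw [he, Matrix.smul_apply, Matrix.smul_apply, smul_eq_mul, smul_eq_mul, map_mul, he]
      simp only [Matrix.one_apply, Matrix.smul_apply, smul_eq_mul]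
      split_ifs <;> simp)
    refine Subgroup.mem_center_iff.2 fun B => Subtype.ext ?_
    change B.1 * s.1 = s.1 * B.1
    rw [hs, Matrix.mul_smul, Matrix.smul_mul, Matrix.mul_one, Matrix.one_mul]
  · intro h
    obtain ⟨c, -, hc⟩ := Matrix.SpecialLinearGroup.mem_center_iff.1 h
    refine conjPSL_eq_one_of_scalar (a := ι c) ?_
    change ι.mapMatrix s.1 = _
    rw [← hc]
    ext i k
    simp [Matrix.one_apply, Matrix.diagonal_apply]
    try split_ifs <;> simp

omit [Fintype F] [Fintype F₀] in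
theorem subL_ker (hn : 2 ≤ n) : (subL ι n).ker = (proj (F := F₀) (n := n)).ker :=
  Subgroup.ext fun s => by rw [MonoidHom.mem_ker, subL_eq_one_iff hn, MonoidHom.mem_ker, proj_eq_one_iff]

theorem centraliser_subL (hn : 2 ≤ n) (hι : ∀ c, τ c = c ↔ c ∈ Set.range ι) {r : ℕ} [Fact r.Prime] [CharP F r]
    {x : MulAut PSL'} (hx : ∀ s, x * subL ι n s = subL ι n s * x) :
    ∃ σ ∈ Subgroup.zpowers τ, x = fieldPSL σ := by
  classical
  haveI : NeZero n := ⟨by omega⟩
  haveI : CharP F₀ r := (RingHom.charP_iff ι ι.injective r).2 inferInstance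
  obtain ⟨a, σ, b, rfl, hb2⟩ := exists_decomposition'' hn x
  have hel : ∀ v φ : Fin n → F₀, φ ⬝ᵥ v = 0 → ∃ y : SpecialLinearGroup (Fin n) F₀, y.1 = 1 + vecMulVec v φ ∧
      y.1 ^ r = 1 := fun v φ h =>
    ⟨⟨1 + vecMulVec v φ, eq_one_of_pow (r := r) (by rw [← Matrix.det_pow, transvection_pow h, Matrix.det_one])⟩, rfl,
      transvection_pow h⟩
  cases b with
  | false =>
    obtain ⟨⟨l, hl⟩, hρ⟩ := scalar_of_lines (ρ := (σ : F →+* F).comp ι) (ι := ι) (b := a.1) hn a.det_ne_zero
      fun v hv => by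
        obtain ⟨φ, hφ0, hφ⟩ := exists_dot_zero hn v hv
        obtain ⟨y, hy, hyp⟩ := hel v φ hφ
        have hk : (y.1 - 1) ^ 1 = vecMulVec v φ := by rw [pow_one, hy, add_sub_cancel_left]
        refine map_line a.det_ne_zero hyp hyp ?_ hk hk hφ0
        obtain ⟨c, hc⟩ := semi_of_commute hn (a := a) (σ := σ) (X := mapGL ι (SpecialLinearGroup.toGL y)) (by
          have := hx y
          rwa [graphIf_false, mul_one] at this)
        exact ⟨c, hc⟩
    refine ⟨σ, CfsgLib.AutPSp.mem_zpowers_of_fix hι fun c => RingHom.congr_fun hρ c, ?_⟩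
    rw [graphIf_false, mul_one, conjPSL_eq_one_of_scalar hl, one_mul]
  | true =>
    exfalso
    have hn3 : 3 ≤ n := by
      by_contra hlt
      exact absurd (hb2 (by omega)) (by simp)
    let i₀ : Fin n := ⟨0, by omega⟩
    let i₁ : Fin n := ⟨1, by omega⟩
    let i₂ : Fin n := ⟨2, by omega⟩
    have h01 : i₁ ≠ i₀ := fun e => by simpa [i₀, i₁] using congrArg Fin.val e
    have h02 : i₂ ≠ i₀ := fun e => by simpa [i₀, i₂] using congrArg Fin.val e
    have h12 : i₁ ≠ i₂ := fun e => by simpa [i₁, i₂] using congrArg Fin.val e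
    set φ : Fin n → F₀ := Pi.single i₀ 1 with hφdef
    have hline : ∀ i, i ≠ i₀ → ∃ c : F, a.1 *ᵥ (((σ : F →+* F).comp ι) ∘ (-φ)) = c • (ι ∘ (Pi.single i 1 : Fin n → F₀)) := by
      intro i hi
      set v : Fin n → F₀ := Pi.single i 1 with hv
      have hd : φ ⬝ᵥ v = 0 := by rw [hφdef, hv, single_dotProduct, Pi.single_eq_of_ne hi.symm, mul_zero]
      have hd' : v ⬝ᵥ (-φ) = 0 := by rw [dotProduct_neg, dotProduct_comm, hd, neg_zero]
      obtain ⟨y, hy, hyp⟩ := hel v φ hd
      obtain ⟨y', hy', hyp'⟩ := hel (-φ) v hd'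
      have hinv : ((y⁻¹ : SpecialLinearGroup (Fin n) F₀).1)ᵀ = y'.1 := by
        have h1 : y'.1 = (1 - vecMulVec v φ)ᵀ := by
          rw [hy', Matrix.transpose_sub, Matrix.transpose_one, Matrix.transpose_vecMulVec, Matrix.neg_vecMulVec, sub_eq_add_neg]
        have h2 : y.1 * (1 - vecMulVec v φ) = 1 := by
          rw [hy, Matrix.add_mul, Matrix.mul_sub, Matrix.mul_sub, Matrix.mul_one, Matrix.mul_one, Matrix.one_mul,
            vecMulVec_mul_vecMulVec, hd, zero_smul, vecMulVec_zero, sub_zero, sub_add_cancel]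
        have h3 : (y⁻¹).1 * y.1 = 1 := congrArg Subtype.val (inv_mul_cancel y)
        rw [h1]
        congr 1
        calc (y⁻¹).1 = (y⁻¹).1 * (y.1 * (1 - vecMulVec v φ)) := by rw [h2, Matrix.mul_one]
          _ = 1 - vecMulVec v φ := by rw [← Matrix.mul_assoc, h3, Matrix.one_mul]
      have hk' : (y'.1 - 1) ^ 1 = vecMulVec (-φ) v := by rw [pow_one, hy', add_sub_cancel_left]
      have hk : (y.1 - 1) ^ 1 = vecMulVec v φ := by rw [pow_one, hy, add_sub_cancel_left]
      refine map_line a.det_ne_zero hyp' hyp ?_ hk' hk (Pi.single_ne_zero_iff.2 one_ne_zero)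
      obtain ⟨c, hc⟩ := semi_of_commute_graph hn (a := a) (σ := σ) (X := mapGL ι (SpecialLinearGroup.toGL y)) (by
        have := hx y
        rwa [graphIf_true] at this)
      refine ⟨c, ?_⟩
      rw [← hinv]
      exact hc
    obtain ⟨c₁, hc₁⟩ := hline i₁ h01
    obtain ⟨c₂, hc₂⟩ := hline i₂ h02
    have h1 := congrFun (hc₁.symm.trans hc₂) i₁
    simp [h12, comp_single] at h1
    rw [h1, zero_smul] at hc₁
    have h2 := congrFun (Matrix.eq_zero_of_mulVec_eq_zero a.det_ne_zero hc₁) i₀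
    simp [φ] at h2

theorem dvd_card_subL (hn : 2 ≤ n) (hι : ∀ c, τ c = c ↔ c ∈ Set.range ι) {p : ℕ} [Fact p.Prime]
    (hd : p ∣ Nat.card ↥(MonoidHom.eqLocus (fieldPSL (n := n) τ).toMonoidHom (MonoidHom.id PSL'))) :
    p ∣ Nat.card (subL ι n).range := by
  classical
  haveI : NeZero n := ⟨by omega⟩
  have key : ∀ s : SpecialLinearGroup (Fin n) F₀, subL ι n (s ^ p) = 1 → subL ι n s ≠ 1 →
      p ∣ Nat.card (subL ι n).range := fun s h1 h2 => by
    have hord := Subgroup.orderOf_dvd_natCard (subL ι n).range ⟨s, rfl⟩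
    rwa [orderOf_eq_prime (p := p) (show subL ι n s ^ p = 1 by rw [← map_pow, h1]) h2] at hord
  let i₀ : Fin n := ⟨0, by omega⟩
  let i₁ : Fin n := ⟨1, by omega⟩
  have h01 : i₀ ≠ i₁ := fun e => by simpa [i₀, i₁] using congrArg Fin.val e
  have hnc : ∀ s : SpecialLinearGroup (Fin n) F₀,
      (∀ c : F₀, s.1 ≠ c • (1 : Matrix (Fin n) (Fin n) F₀)) → subL ι n s ≠ 1 := fun s hs h => by
    obtain ⟨c, -, hc⟩ := Matrix.SpecialLinearGroup.mem_center_iff.1 ((subL_eq_one_iff hn s).1 h)
    refine hs c ?_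
    rw [← hc, Matrix.scalar_apply, smul_one_eq_diagonal]
  by_cases hw : n = 2 ∧ p = 2
  · obtain ⟨rfl, rfl⟩ := hw
    refine key ⟨!![0, 1; -1, 0], by simp [Matrix.det_fin_two]⟩ ?_ (hnc _ fun c h => ?_)
    · refine (subL_eq_one_iff hn _).2 (Matrix.SpecialLinearGroup.mem_center_iff.2 ⟨-1, by simp, ?_⟩)
      change Matrix.scalar (Fin 2) (-1 : F₀) = (!![0, 1; -1, 0] : Matrix (Fin 2) (Fin 2) F₀) ^ 2
      rw [pow_two]
      ext i k
      fin_cases i <;> fin_cases k <;> simp
    · have := congrFun (congrFun h 0) 1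
      simp at this
  have h1 : p ∣ Nat.card (GL (Fin n) F₀) := by
    refine hd.trans ((CfsgLib.LocalBalance.fix_dvd_card (conj_injective' hn) _ _ conj_mem_range).trans
      ((Subgroup.card_dvd_of_le ?_).trans (Subgroup.card_range_dvd (conjPSL.comp (mapGL (n := n) ι)))))
    rintro _ ⟨⟨g, rfl⟩, hg⟩
    obtain ⟨g₀, c, -, e⟩ := exists_descend_of_commute hn hι (Subgroup.mem_centralizer_singleton_iff.mp hg)
    exact ⟨g₀, (conjPSL_eq_of_smul e).symm⟩
  have hGL : Nat.card (GL (Fin n) F₀) = Nat.card F₀ˣ * Nat.card (SpecialLinearGroup (Fin n) F₀) := by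
    let d : GL (Fin n) F₀ →* F₀ˣ := GeneralLinearGroup.det
    have hds : Function.Surjective d := fun u =>
      ⟨GeneralLinearGroup.mkOfDetNeZero (Matrix.diagonal fun i => if i = i₀ then (u : F₀) else 1) (by
        rw [Matrix.det_diagonal]; simp), Units.ext (by
        change (Matrix.diagonal _).det = _
        rw [Matrix.det_diagonal]; simp)⟩
    rw [Subgroup.card_eq_card_quotient_mul_card_subgroup d.ker,
      Nat.card_congr (QuotientGroup.quotientKerEquivOfSurjective d hds).toEquiv]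
    congr 1
    exact Nat.card_congr
      { toFun := fun g => ⟨g.1.1, congrArg Units.val (MonoidHom.mem_ker.1 g.2)⟩
        invFun := fun s => ⟨SpecialLinearGroup.toGL s, Units.ext s.2⟩
        left_inv := fun g => Subtype.ext (Units.ext rfl)
        right_inv := fun s => rfl }
  by_cases hq1 : p ∣ Nat.card F₀ˣ
  · obtain ⟨ω, hω⟩ := exists_prime_orderOf_dvd_card' (G := F₀ˣ) p hq1
    have hωp : (ω : F₀) ^ p = 1 := by
      have h : ω ^ p = 1 := hω ▸ pow_orderOf_eq_one ω
      rw [← Units.val_pow_eq_pow_val, h, Units.val_one]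
    have hω1 : (ω : F₀) ≠ 1 := fun e => by
      rw [Units.val_eq_one] at e
      rw [e, orderOf_one] at hω
      exact (Fact.out : p.Prime).ne_one hω.symm
    let d : Fin n → F₀ := fun i => if i = i₀ then (ω : F₀) else if i = i₁ then (ω : F₀)⁻¹ else 1
    have hdet : (Matrix.diagonal d).det = 1 := by
      rw [Matrix.det_diagonal, Fintype.prod_eq_mul i₀ i₁ h01 fun i hi => by simp [d, hi.1, hi.2]]
      simp [d, h01.symm]
    refine key ⟨Matrix.diagonal d, hdet⟩ ((subL_eq_one_iff hn _).2 ?_) (hnc _ fun c h => ?_)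
    · have : @HPow.hPow (SpecialLinearGroup (Fin n) F₀) ℕ (SpecialLinearGroup (Fin n) F₀) _ ⟨Matrix.diagonal d, hdet⟩ p = 1 := by
        refine Subtype.ext ?_
        change Matrix.diagonal d ^ p = 1
        rw [Matrix.diagonal_pow, ← Matrix.diagonal_one]
        congr 1
        funext i
        simp only [Pi.pow_apply, d]
        split_ifs
        · exact hωp
        · rw [inv_pow, hωp, inv_one]
        · exact one_pow _
      rw [this]
      exact Subgroup.one_mem _
    · have e0 := congrFun (congrFun h i₀) i₀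
      rcases (show n = 2 ∨ 3 ≤ n by omega) with rfl | h3
      · have e1 := congrFun (congrFun h i₁) i₁
        simp [d, h01.symm] at e0 e1
        have hsq : (ω : F₀) ^ 2 = 1 := by
          rw [pow_two]
          nth_rewrite 2 [e0]
          rw [← e1, mul_inv_cancel₀ ω.ne_zero]
        have hp2 : p ∣ 2 := hω ▸ orderOf_dvd_of_pow_eq_one (Units.ext (by rw [Units.val_pow_eq_pow_val, hsq, Units.val_one]))
        exact hw ⟨rfl, (Nat.prime_dvd_prime_iff_eq Fact.out Nat.prime_two).1 hp2⟩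
      · let i₂ : Fin n := ⟨2, by omega⟩
        have h02 : i₂ ≠ i₀ := fun e => by simpa [i₀, i₂] using congrArg Fin.val e
        have h12 : i₂ ≠ i₁ := fun e => by simpa [i₁, i₂] using congrArg Fin.val e
        have e2 := congrFun (congrFun h i₂) i₂
        simp [d, h02, h12] at e0 e2
        exact hω1 (e0.trans e2.symm)
  · rw [hGL] at h1
    have h2 := ((Fact.out : p.Prime).dvd_mul.1 h1).resolve_left hq1
    have hsp := Subgroup.card_eq_card_quotient_mul_card_subgroup (subL ι n).ker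
    rw [Nat.card_congr (QuotientGroup.quotientKerEquivRange (subL ι n)).toEquiv] at hsp
    rw [hsp] at h2
    refine ((Fact.out : p.Prime).dvd_mul.1 h2).resolve_right fun h3 => hq1 (h3.trans ?_)
    rw [subL_ker hn, show (proj (F := F₀) (n := n)).ker = Subgroup.center _ from QuotientGroup.ker_mk' _,
      Nat.card_congr SpecialLinearGroup.center_equiv_rootsOfUnity.toEquiv]
    exact Subgroup.card_subgroup_dvd_card _

theorem exists_subL_ne_one (hn : 2 ≤ n) : ∃ s, subL (F := F) ι n s ≠ 1 := by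
  let i₀ : Fin n := ⟨0, by omega⟩
  let i₁ : Fin n := ⟨1, by omega⟩
  have h01 : i₀ ≠ i₁ := fun e => by simpa [i₀, i₁] using congrArg Fin.val e
  refine ⟨⟨Matrix.transvection i₀ i₁ (1 : F₀), Matrix.det_transvection_of_ne _ _ h01 _⟩, fun h => ?_⟩
  obtain ⟨c, -, hc⟩ := Matrix.SpecialLinearGroup.mem_center_iff.1 ((subL_eq_one_iff hn _).1 h)
  have := congrFun (congrFun hc i₀) i₁
  simp [Matrix.transvection, h01] at this

theorem core_field_iff (hn : 2 ≤ n) (hι : ∀ c, τ c = c ↔ c ∈ Set.range ι) {p r : ℕ} [Fact p.Prime]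
    [Fact r.Prime] [CharP F r] (hpr : p ≠ r) (hτ : τ ^ p = 1)
    (A : Subgroup (MulAut PSL')) (hinn : ∀ k : PSL', MulAut.conj k ∈ A) :
    Cfsg.pPrimeCore p ↥(A ⊓ Subgroup.centralizer {fieldPSL τ}) ≠ ⊥ ↔
      Nat.Coprime p (Nat.card ↥(MonoidHom.eqLocus (fieldPSL (n := n) τ).toMonoidHom (MonoidHom.id PSL'))) := by
  classical
  haveI : CharP F₀ r := (RingHom.charP_iff ι ι.injective r).2 inferInstance
  haveI : Nontrivial (Fin n) := Fin.nontrivial_iff_two_le.2 hn
  constructor
  · intro h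
    rw [(Fact.out : p.Prime).coprime_iff_not_dvd]
    intro hd
    have hR := dvd_card_subL hn hι hd
    refine h (CfsgLib.LocalBalance.core_eq_bot p A _ (conjPSL (F := F) (n := n)).range (subL ι n).range
      (range_conjPSL_normal hn) ?_ ?_ ?_ ?_ ?_)
    · rintro _ ⟨s, rfl⟩
      exact ⟨_, rfl⟩
    · rintro _ ⟨s, rfl⟩
      obtain ⟨k, hk⟩ := subL_inn (ι := ι) s
      exact ⟨hk ▸ hinn k, Subgroup.mem_centralizer_singleton_iff.2 (subL_commute hn hι s)⟩
    · intro x hx
      obtain ⟨σ, hσ, rfl⟩ := centraliser_subL hn hι (r := r) fun s => hx _ ⟨s, rfl⟩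
      rw [← map_pow]
      obtain ⟨k, rfl⟩ := Subgroup.mem_zpowers_iff.1 hσ
      rw [← zpow_natCast, ← _root_.zpow_mul, mul_comm, _root_.zpow_mul, zpow_natCast, hτ, _root_.one_zpow, map_one]
    · rintro _ ⟨g, rfl⟩ hg _ ⟨s, rfl⟩
      obtain ⟨g₀, c, -, e⟩ := exists_descend_of_commute hn hι hg
      refine ⟨conjSL g₀ s, ?_⟩
      rw [conjPSL_eq_of_smul e]
      change conjPSL (mapGL ι (SpecialLinearGroup.toGL (conjSL g₀ s))) =
        conjPSL (mapGL ι g₀) * conjPSL (mapGL ι (SpecialLinearGroup.toGL s)) * (conjPSL (mapGL ι g₀))⁻¹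
      rw [← map_inv, ← map_mul, ← map_mul, ← map_inv (mapGL ι), ← map_mul (mapGL ι), ← map_mul (mapGL ι)]
      exact congrArg (fun x => conjPSL (mapGL ι x)) (Units.ext rfl)
    · intro M hM hMR hMp
      by_cases hcond : 3 ≤ Fintype.card (Fin n) ∨ ∃ x : F₀, x ≠ 0 ∧ x ^ 2 ≠ 1
      · haveI := CfsgLib.SLn.isSimpleGroup_PSL (ι := Fin n) (F := F₀) hcond
        exact CfsgLib.LocalBalance.eq_bot_of_simple (subL ι n) proj proj_surjective (subL_ker hn) hR M hM hMR hMp
      · push Not at hcond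
        obtain ⟨h3, hsq⟩ := hcond
        rw [Fintype.card_fin] at h3
        obtain rfl : n = 2 := by omega
        have hq : Fintype.card F₀ ≤ 3 := by
          have hs : (Finset.univ : Finset F₀) ⊆ {0, 1, -1} := fun x _ => by
            rcases eq_or_ne x 0 with h0 | h0
            · simp [h0]
            · rcases sq_eq_one_iff.1 (hsq x h0) with h | h <;> simp [h]
          exact (Finset.card_le_card hs).trans Finset.card_le_three
        obtain ⟨e, hrp, hcard⟩ := FiniteField.card F₀ r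
        have hqr : Fintype.card F₀ = r := by
          have h2 := hrp.two_le
          rcases Nat.lt_or_ge 1 (e : ℕ) with h | h
          · exfalso
            have : r ^ 2 ≤ r ^ (e : ℕ) := Nat.pow_le_pow_right hrp.pos h
            nlinarith
          · rw [hcard, show (e : ℕ) = 1 by have := e.pos; omega, pow_one]
        have hcardGL := Matrix.card_GL_field (𝔽 := F₀) 2
        rw [Fin.prod_univ_two, hqr] at hcardGL
        have hRd : Nat.card (subL ι 2).range ∣ Nat.card (GL (Fin 2) F₀) :=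
          (Subgroup.card_range_dvd _).trans (Subgroup.card_dvd_of_injective _ SpecialLinearGroup.toGL_injective)
        have hMd : Nat.card M ∣ Nat.card (GL (Fin 2) F₀) := (Subgroup.card_dvd_of_le hM).trans hRd
        have hpd : p ∣ Nat.card (GL (Fin 2) F₀) := hR.trans hRd
        have hMr : ∃ j, Nat.card M = r ^ j := by
          have hr2 := hrp.two_le
          have hr3 : r ≤ 3 := hqr ▸ hq
          have hcop := ((Fact.out : p.Prime).coprime_iff_not_dvd.2 hMp).symm
          interval_cases r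
          · norm_num [-Nat.card_eq_fintype_card] at hcardGL
            rw [hcardGL] at hMd hpd
            have hp3 : p = 3 := by
              rcases (Fact.out : p.Prime).dvd_mul.1 (show p ∣ 2 * 3 from hpd) with h | h
              · exact absurd ((Nat.prime_dvd_prime_iff_eq Fact.out Nat.prime_two).1 h) hpr
              · exact (Nat.prime_dvd_prime_iff_eq Fact.out Nat.prime_three).1 h
            subst hp3
            have : Nat.card M ∣ 2 ^ 1 := hcop.dvd_of_dvd_mul_right (show Nat.card M ∣ 2 ^ 1 * 3 from hMd)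
            obtain ⟨j, -, hj⟩ := (Nat.dvd_prime_pow Nat.prime_two).1 this
            exact ⟨j, hj⟩
          · norm_num [-Nat.card_eq_fintype_card] at hcardGL
            rw [hcardGL] at hMd hpd
            have hp2 : p = 2 := by
              rcases (Fact.out : p.Prime).dvd_mul.1 (show p ∣ 2 ^ 4 * 3 from hpd) with h | h
              · exact (Nat.prime_dvd_prime_iff_eq Fact.out Nat.prime_two).1 ((Fact.out : p.Prime).dvd_of_dvd_pow h)
              · exact absurd ((Nat.prime_dvd_prime_iff_eq Fact.out Nat.prime_three).1 h) hpr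
            subst hp2
            have : Nat.card M ∣ 3 ^ 1 :=
              (Nat.Coprime.pow_right 4 hcop).dvd_of_dvd_mul_left (show Nat.card M ∣ 2 ^ 4 * 3 ^ 1 from hMd)
            obtain ⟨j, -, hj⟩ := (Nat.dvd_prime_pow Nat.prime_three).1 this
            exact ⟨j, hj⟩
        obtain ⟨j, hj⟩ := hMr
        refine CfsgLib.LocalBalance.eq_bot_of_transitive (r := r) (Ω := ℙ F₀ (Fin 2 → F₀)) (subL ι 2) (fun x => ?_)
          ?_ M hM hMR (IsPGroup.of_card hj)
        · rw [subL_eq_one_iff hn]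
          constructor
          · intro hx w
            obtain ⟨c, hc1, hc⟩ := Matrix.SpecialLinearGroup.mem_center_iff.1 hx
            induction w using Projectivization.ind with
            | h v hv =>
              rw [Projectivization.smul_mk, Projectivization.mk_eq_mk_iff']
              refine ⟨c, ?_⟩
              change c • v = x.1 *ᵥ v
              rw [← hc]
              funext i
              simp [Matrix.mulVec_diagonal]
          · intro hfix
            obtain ⟨⟨l, hl⟩, -⟩ := scalar_of_lines (ρ := RingHom.id F₀) (ι := RingHom.id F₀) (b := x.1) le_rfl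
              (by rw [x.2]; exact one_ne_zero) fun v hv => by
                have := hfix (Projectivization.mk F₀ v hv)
                rw [Projectivization.smul_mk, Projectivization.mk_eq_mk_iff'] at this
                obtain ⟨c, hc⟩ := this
                exact ⟨c, hc.symm⟩
            refine Subgroup.mem_center_iff.2 fun B => Subtype.ext ?_
            change B.1 * x.1 = x.1 * B.1
            rw [hl, Matrix.mul_smul, Matrix.smul_mul, Matrix.mul_one, Matrix.one_mul]
        · rw [Projectivization.card_of_finrank_two _ _ (Module.finrank_fin_fun F₀), Nat.card_eq_fintype_card, hqr]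
          intro hd'
          have := Nat.le_of_dvd (by omega) ((Nat.dvd_add_right (dvd_refl r)).1 hd')
          have := hrp.two_le
          omega
  · intro h
    obtain ⟨s, hs⟩ := exists_subL_ne_one (F := F) (ι := ι) hn
    exact CfsgLib.LocalBalance.core_ne_bot_of_coprime p (conj_injective' hn) A hinn _
      (CfsgLib.LocalBalance.exists_fixed (conj_injective' hn) _ hs (subL_inn s) (subL_commute hn hι s)) h

end FieldType

/-! ### Automorphisms with a graph part -/

variable [Fintype F]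

/-- A graph automorphism of order two. -/
theorem core_graph (hn : 3 ≤ n) {r : ℕ} [Fact r.Prime] [CharP F r] (hr : r ≠ 2) (g : GL (Fin n) F)
    (hsq : (conjPSL g * graphPSL : MulAut PSL') ^ 2 = 1)
    (A : Subgroup (MulAut PSL')) (hinn : ∀ k : PSL', MulAut.conj k ∈ A) :
    Cfsg.pPrimeCore 2 ↥(A ⊓ Subgroup.centralizer {(conjPSL g * graphPSL : MulAut PSL')}) = ⊥ := by
  classical
  haveI : Fact (Nat.Prime 2) := ⟨Nat.prime_two⟩
  haveI : NeZero n := ⟨by omega⟩
  have hn2 : 2 ≤ n := by omega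
  have h20 : (2 : F) ≠ 0 := fun h => hr ((Nat.prime_dvd_prime_iff_eq (Fact.out : r.Prime) Nat.prime_two).1
    ((CharP.cast_eq_zero_iff F r 2).1 (by exact_mod_cast h)))
  -- the matrix is symmetric or alternating
  have h1 : conjPSL (g * graphGL g) = (1 : MulAut PSL') := by
    have e := graph_mul_graph g g (1 : RingAut F) 1
    rw [map_one fieldPSL, mul_one, mul_one, map_one fieldPSL, mul_one] at e
    rw [← hsq, pow_two, e]
    rfl
  obtain ⟨u, hu⟩ := (conjPSL_eq_one_iff hn2).1 h1
  set gi := (g⁻¹ : GL (Fin n) F).1 with hgi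
  have hg1 : g.1 * gi = 1 := by rw [hgi, ← Units.val_mul, mul_inv_cancel, Units.val_one]
  have hg2 : gi * g.1 = 1 := by rw [hgi, ← Units.val_mul, inv_mul_cancel, Units.val_one]
  have hu' : g.1 * giᵀ = u • (1 : Matrix (Fin n) (Fin n) F) := hu
  have hgt : g.1 = u • g.1ᵀ := by
    calc g.1 = g.1 * (g.1 * gi)ᵀ := by rw [hg1, Matrix.transpose_one, Matrix.mul_one]
      _ = g.1 * giᵀ * g.1ᵀ := by rw [Matrix.transpose_mul, Matrix.mul_assoc]
      _ = u • g.1ᵀ := by rw [hu', Matrix.smul_mul, Matrix.one_mul]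
  have huu : u * u = 1 := by
    have h2 : g.1 = (u * u) • g.1 := by
      conv_lhs => rw [hgt]
      rw [← smul_smul]
      congr 1
      conv_lhs => rw [hgt, Matrix.transpose_smul, Matrix.transpose_transpose]
    have h3 : (1 - u * u) • g.1 = 0 := by rw [sub_smul, one_smul, ← h2, sub_self]
    rcases smul_eq_zero.1 h3 with h4 | h4
    · linear_combination -h4
    · exact absurd h4 (Units.ne_zero g)
  have hG : gi.det ≠ 0 := (g⁻¹).det_ne_zero
  have hGt : giᵀ = gi ∨ giᵀ = -gi := by
    have e : giᵀ = u • gi := by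
      calc giᵀ = gi * (g.1 * giᵀ) := by rw [← Matrix.mul_assoc, hg2, Matrix.one_mul]
        _ = u • gi := by rw [hu', Matrix.mul_smul, Matrix.mul_one]
    rcases mul_self_eq_one_iff.1 huu with h | h
    · exact Or.inl (by rw [e, h, one_smul])
    · exact Or.inr (by rw [e, h, neg_one_smul])
  let φ : formSub gi →* MulAut PSL' := conjPSL.comp (SpecialLinearGroup.toGL.comp (formSub gi).subtype)
  have hφapp : ∀ y : formSub gi, φ y = conjPSL (SpecialLinearGroup.toGL y.1) := fun y => rfl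
  have hyinv : ∀ y : SLn', y.1 * (y⁻¹).1 = 1 := fun y => congrArg Subtype.val (mul_inv_cancel y)
  have hcomm : ∀ y : formSub gi, φ y * (conjPSL g * graphPSL) = conjPSL g * graphPSL * φ y := by
    intro y
    have key : g.1 * ((y.1⁻¹).1)ᵀ = y.1.1 * g.1 := by
      have h2 := congrArg (fun M => g.1 * (y.1⁻¹).1ᵀ * M * g.1) (mem_formSub.1 y.2)
      have h3 : (y.1⁻¹).1ᵀ * y.1.1ᵀ = 1 := by rw [← Matrix.transpose_mul, hyinv, Matrix.transpose_one]
      calc g.1 * ((y.1⁻¹).1)ᵀ = g.1 * (y.1⁻¹).1ᵀ * gi * g.1 := by rw [Matrix.mul_assoc _ gi, hg2, Matrix.mul_one]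
        _ = g.1 * (y.1⁻¹).1ᵀ * (y.1.1ᵀ * gi * y.1.1) * g.1 := h2.symm
        _ = g.1 * ((y.1⁻¹).1ᵀ * y.1.1ᵀ) * gi * y.1.1 * g.1 := by simp only [Matrix.mul_assoc]
        _ = y.1.1 * g.1 := by rw [h3, Matrix.mul_one, hg1, Matrix.one_mul]
    rw [hφapp, mul_assoc _ graphPSL, graphPSL_mul_conjPSL, ← mul_assoc, ← mul_assoc, ← map_mul, ← map_mul]
    congr 2
    refine Units.ext ?_
    rw [Units.val_mul, Units.val_mul]
    exact key.symm
  have hsemi : ∀ (a : Matrix (Fin n) (Fin n) F) (σ : RingAut F) (y : formSub gi),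
      (∃ c : F, a * y.1.1.map σ = c • (y.1.1 * a)) → Semi (σ : F →+* F) (RingHom.id F) a y.1.1 y.1.1 :=
    fun a σ y h => by
      obtain ⟨c, hc⟩ := h
      refine ⟨c, ?_⟩
      rw [show y.1.1.map (RingHom.id F) = y.1.1 from Matrix.ext fun i j => rfl]
      exact hc
  -- the centraliser without graph part
  have hcen : ∀ (a : GL (Fin n) F) (σ : RingAut F),
      (∀ y, conjPSL a * fieldPSL σ * φ y = φ y * (conjPSL a * fieldPSL σ)) →
      conjPSL a * fieldPSL σ = (1 : MulAut PSL') := by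
    intro a σ h
    obtain ⟨⟨l, hl⟩, hρ⟩ := scalar_of_formSub (ρ := (σ : F →+* F)) (ι := RingHom.id F) (b := a.1) hn h20 hG hGt
      (r := r) a.det_ne_zero fun y => hsemi _ σ y (semi_of_commute hn2 (h y))
    rw [conjPSL_eq_one_of_scalar hl, one_mul,
      show σ = 1 from RingEquiv.ext fun x => RingHom.congr_fun hρ x, map_one]
  obtain ⟨y₀, hy₀⟩ : ∃ y, φ y ≠ 1 := by
    by_contra hno
    push Not at hno
    let i₀ : Fin n := ⟨0, by omega⟩
    let i₁ : Fin n := ⟨1, by omega⟩
    have h01 : i₀ ≠ i₁ := fun e => by simpa [i₀, i₁] using congrArg Fin.val e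
    have hd : (Matrix.transvection i₀ i₁ (1 : F)).det ≠ 0 := by
      rw [Matrix.det_transvection_of_ne _ _ h01 _]; exact one_ne_zero
    have := hcen (GeneralLinearGroup.mkOfDetNeZero _ hd) 1 fun y => by rw [hno, mul_one, one_mul]
    rw [map_one, mul_one] at this
    obtain ⟨l, hl⟩ := (conjPSL_eq_one_iff hn2).1 this
    have e0 := congrFun (congrFun hl i₀) i₁
    change Matrix.transvection i₀ i₁ (1 : F) i₀ i₁ = _ at e0
    simp [Matrix.transvection, h01] at e0
  have hker : Nat.card φ.ker ∣ 2 := by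
    let i₀ : Fin n := ⟨0, by omega⟩
    have hs : ∀ y : φ.ker, ∃ c : F, (c = 1 ∨ c = -1) ∧ y.1.1.1 = c • (1 : Matrix (Fin n) (Fin n) F) := by
      rintro ⟨y, hy⟩
      obtain ⟨a, ha⟩ := (conjPSL_eq_one_iff hn2).1 (MonoidHom.mem_ker.1 hy)
      have hc : y.1.1 = a • (1 : Matrix (Fin n) (Fin n) F) := ha
      refine ⟨a, ?_, hc⟩
      have h2 := mem_formSub.1 y.2
      rw [hc, Matrix.transpose_smul, Matrix.transpose_one, Matrix.smul_mul, Matrix.one_mul, Matrix.smul_mul,
        Matrix.mul_smul, Matrix.mul_one, smul_smul] at h2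
      have h2' : (a * a - 1) • gi = 0 := by rw [sub_smul, one_smul, h2, sub_self]
      rcases smul_eq_zero.1 h2' with h3 | h3
      · exact mul_self_eq_one_iff.1 (sub_eq_zero.1 h3)
      · exact absurd (by rw [h3]; exact Matrix.det_zero) hG
    choose c hc hc' using hs
    exact card_dvd_two_of_scalars φ.ker c hc fun y y' e =>
      Subtype.ext (Subtype.ext (Subtype.ext (by rw [hc', hc', e])))
  have hsmall := CfsgLib.LocalBalance.eq_bot_of_odd_image φ hker (CfsgLib.LocalBalance.formSub_no_odd hn h20 hG hGt)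
  refine CfsgLib.LocalBalance.core_eq_bot 2 A _ (conjPSL (F := F) (n := n)).range φ.range
    (range_conjPSL_normal hn2) ?_ ?_ ?_ ?_ ?_
  · rintro _ ⟨y, rfl⟩
    exact ⟨_, rfl⟩
  · rintro _ ⟨y, rfl⟩
    refine ⟨?_, Subgroup.mem_centralizer_singleton_iff.2 (hcomm y)⟩
    rw [hφapp, conjPSL_toGL]
    exact hinn _
  · intro x hx
    obtain ⟨a, σ, b, rfl, -⟩ := exists_decomposition'' hn2 x
    cases b with
    | false =>
      rw [graphIf_false, mul_one] at hx ⊢
      rw [hcen a σ fun y => hx _ ⟨y, rfl⟩, one_pow]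
    | true =>
      rw [graphIf_true] at hx ⊢
      have hprod : conjPSL a * fieldPSL σ * graphPSL * (conjPSL g * graphPSL) =
          (conjPSL (a * fieldGL σ (graphGL g)) * fieldPSL σ : MulAut PSL') := by
        have e := graph_mul_graph a g σ 1
        rw [map_one fieldPSL, mul_one, mul_one] at e
        exact e
      have h3 : conjPSL a * fieldPSL σ * graphPSL * (conjPSL g * graphPSL) = (1 : MulAut PSL') := by
        rw [hprod]
        refine hcen _ σ fun y => ?_
        rw [← hprod, mul_assoc, ← hcomm, ← mul_assoc, hx _ ⟨y, rfl⟩, mul_assoc]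
      rw [eq_inv_of_mul_eq_one_left h3, inv_pow, hsq, inv_one]
  · rintro _ ⟨a, rfl⟩ ha _ ⟨y, rfl⟩
    rw [mul_assoc _ graphPSL, graphPSL_mul_conjPSL, ← mul_assoc, ← mul_assoc, ← map_mul, ← map_mul,
      mul_left_inj, conjPSL_eq_iff' hn2] at ha
    obtain ⟨c, hc⟩ := ha
    set ai := (a⁻¹ : GL (Fin n) F).1 with hai
    have ha1 : a.1 * ai = 1 := by rw [hai, ← Units.val_mul, mul_inv_cancel, Units.val_one]
    have hc' : a.1 * g.1 = c • (g.1 * aiᵀ) := hc
    have hform : a.1ᵀ * gi * a.1 = c • gi := by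
      have e : g.1 * (a.1ᵀ * gi * a.1) * g.1 = c • g.1 := by
        calc g.1 * (a.1ᵀ * gi * a.1) * g.1 = g.1 * a.1ᵀ * gi * (a.1 * g.1) := by simp only [Matrix.mul_assoc]
          _ = c • (g.1 * a.1ᵀ * (gi * g.1) * aiᵀ) := by rw [hc', Matrix.mul_smul]; simp only [Matrix.mul_assoc]
          _ = c • g.1 := by
            rw [hg2, Matrix.mul_one, Matrix.mul_assoc, ← Matrix.transpose_mul, show ai * a.1 = 1 by
              rw [hai, ← Units.val_mul, inv_mul_cancel, Units.val_one], Matrix.transpose_one, Matrix.mul_one]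
      calc a.1ᵀ * gi * a.1 = gi * (g.1 * (a.1ᵀ * gi * a.1) * g.1) * gi := by
            simp only [← Matrix.mul_assoc, hg2, Matrix.one_mul]
            simp only [Matrix.mul_assoc, hg1, Matrix.mul_one]
        _ = c • gi := by rw [e, Matrix.mul_smul, Matrix.smul_mul, hg2, Matrix.one_mul]
    have hc0 : c ≠ 0 := fun h0 => by
      have h4 := congrArg Matrix.det hform
      rw [h0, zero_smul, Matrix.det_mul, Matrix.det_mul, Matrix.det_transpose, Matrix.det_zero] at h4
      exact mul_ne_zero (mul_ne_zero a.det_ne_zero hG) a.det_ne_zero h4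
    have hform' : aiᵀ * gi * ai = c⁻¹ • gi := by
      have h4 := congrArg (fun M => c⁻¹ • (aiᵀ * M * ai)) hform
      simp only [Matrix.mul_smul, Matrix.smul_mul, smul_smul, inv_mul_cancel₀ hc0, one_smul] at h4
      rw [← h4, show aiᵀ * (a.1ᵀ * gi * a.1) * ai = (a.1 * ai)ᵀ * gi * (a.1 * ai) by
        simp only [Matrix.transpose_mul, Matrix.mul_assoc], ha1, Matrix.transpose_one, Matrix.one_mul, Matrix.mul_one]
    have hmem : conjSL a y.1 ∈ formSub gi := by
      refine mem_formSub.2 ?_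
      rw [conjSL_val, show (a.1 * y.1.1 * ai)ᵀ * gi * (a.1 * y.1.1 * ai) =
          aiᵀ * (y.1.1ᵀ * (a.1ᵀ * gi * a.1) * y.1.1) * ai by simp only [Matrix.transpose_mul, Matrix.mul_assoc],
        hform, Matrix.mul_smul, Matrix.smul_mul, mem_formSub.1 y.2, Matrix.mul_smul, Matrix.smul_mul, hform', smul_smul,
        mul_inv_cancel₀ hc0, one_smul]
    refine ⟨⟨_, hmem⟩, ?_⟩
    rw [hφapp, hφapp, ← map_inv, ← map_mul, ← map_mul]
    exact congrArg conjPSL (Units.ext rfl)
  · intro M hM hMR hMp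
    exact hsmall M hM hMR (Nat.not_even_iff_odd.1 fun he => hMp (even_iff_two_dvd.1 he))

open CfsgLib.UGeom in
/-- A graph-field automorphism of order two. -/
theorem core_graphField (hn : 3 ≤ n) {r : ℕ} [Fact r.Prime] [CharP F r] (hr : r ≠ 2) {τ : RingAut F}
    {q : ℕ} (C : Conj F q) (hτC : ∀ x, τ x = C.σ x)
    (A : Subgroup (MulAut PSL')) (hinn : ∀ k : PSL', MulAut.conj k ∈ A) :
    Cfsg.pPrimeCore 2 ↥(A ⊓ Subgroup.centralizer {(fieldPSL τ * graphPSL : MulAut PSL')}) = ⊥ := by
  classical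
  haveI : Fact (Nat.Prime 2) := ⟨Nat.prime_two⟩
  haveI : NeZero n := ⟨by omega⟩
  have hn2 : 2 ≤ n := by omega
  have hτ : τ ≠ 1 := fun h => C.ne_id (RingHom.ext fun x => by rw [← hτC, h]; rfl)
  have hτ2 : τ * τ = 1 := RingEquiv.ext fun x => by rw [RingAut.mul_apply, hτC, hτC, C.invol]; rfl
  have hsq : (fieldPSL τ * graphPSL : MulAut PSL') ^ 2 = 1 := by
    rw [pow_two, mul_assoc, ← mul_assoc graphPSL, graphPSL_mul_fieldPSL, mul_assoc, graphPSL_mul_self, mul_one,
      ← map_mul, hτ2, map_one]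
  have h20 : (2 : F) ≠ 0 := fun h => hr ((Nat.prime_dvd_prime_iff_eq (Fact.out : r.Prime) Nat.prime_two).1
    ((CharP.cast_eq_zero_iff F r 2).1 (by exact_mod_cast h)))
  have hadj : ∀ M : Matrix (Fin n) (Fin n) F,
      CfsgLib.Unitary.adj (τ : F →+* F) M = CfsgLib.Unitary.adj C.σ M :=
    fun M => Matrix.ext fun i j => hτC _
  have hmem : ∀ g : GL (Fin n) F, g ∈ Cfsg.GU n F q ↔ CfsgLib.Unitary.adj (τ : F →+* F) g.1 * g.1 = 1 :=
    fun g => by rw [hadj]; exact mem_GU_iff C.σ q C.pow C.invol g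
  let φ : Cfsg.SU n F q →* MulAut PSL' := conjPSL.comp (SpecialLinearGroup.toGL.comp (Cfsg.SU n F q).subtype)
  have hφapp : ∀ y : Cfsg.SU n F q, φ y = conjPSL (SpecialLinearGroup.toGL y.1) := fun y => rfl
  have hcomm : ∀ y, φ y * (fieldPSL τ * graphPSL) = fieldPSL τ * graphPSL * φ y := fun y =>
    (graphField_commute_iff hn2 τ _).2 ⟨1, by rw [one_smul]; exact (hmem _).1 (toGU n F q y).2⟩
  have hker : φ.ker = (CfsgLib.AutPSU.proj (F := F) (n := n) (q := q)).ker := by
    refine Subgroup.ext fun s => ?_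
    rw [MonoidHom.mem_ker, MonoidHom.mem_ker, CfsgLib.AutPSU.proj_eq_one_iff, hφapp, conjPSL_eq_one_iff hn2]
    constructor
    · rintro ⟨a, ha⟩
      exact CfsgLib.AutPSU.mem_center_of_scalar (c := a) ha
    · intro h
      exact CfsgLib.Unitary.scalar_of_commute q C.card hn s.1.1 fun g =>
        congrArg (fun y : Cfsg.SU n F q => y.1.1) (Subgroup.mem_center_iff.1 h g)
  have hq2 : ¬ (n = 3 ∧ q = 2) := by
    rintro ⟨-, rfl⟩
    obtain ⟨e, hrp, he⟩ := FiniteField.card F r
    rw [C.card] at he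
    have h2r : 2 ∣ r ^ (e : ℕ) := by rw [← he]; norm_num
    exact hr ((Nat.prime_dvd_prime_iff_eq Nat.prime_two hrp).1 (Nat.prime_two.dvd_of_dvd_pow h2r)).symm
  haveI := isSimpleGroup_PSU C hn hq2
  -- an involution
  have hR : 2 ∣ Nat.card φ.range := by
    let i₀ : Fin n := ⟨0, by omega⟩
    let i₁ : Fin n := ⟨1, by omega⟩
    let i₂ : Fin n := ⟨2, by omega⟩
    have h01 : i₀ ≠ i₁ := fun e => by simpa [i₀, i₁] using congrArg Fin.val e
    have h02 : i₂ ≠ i₀ := fun e => by simpa [i₀, i₂] using congrArg Fin.val e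
    have h12 : i₂ ≠ i₁ := fun e => by simpa [i₁, i₂] using congrArg Fin.val e
    let d : Fin n → F := fun i => if i = i₀ then -1 else if i = i₁ then -1 else 1
    have hdet : (Matrix.diagonal d).det = 1 := by
      rw [Matrix.det_diagonal, Fintype.prod_eq_mul i₀ i₁ h01 fun i hi => by simp [d, hi.1, hi.2]]
      simp [d, h01.symm]
    have hgu : SpecialLinearGroup.toGL (⟨Matrix.diagonal d, hdet⟩ : SLn') ∈ Cfsg.GU n F q := by
      refine (hmem _).2 ?_
      change CfsgLib.Unitary.adj (τ : F →+* F) (Matrix.diagonal d) * Matrix.diagonal d = 1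
      rw [CfsgLib.Unitary.adj, Matrix.diagonal_map (map_zero _), Matrix.diagonal_transpose,
        Matrix.diagonal_mul_diagonal, ← Matrix.diagonal_one]
      congr 1
      funext i
      simp only [d, Function.comp_apply]
      split_ifs <;> simp
    set s : Cfsg.SU n F q := ⟨⟨Matrix.diagonal d, hdet⟩, hgu⟩ with hs
    have hne : φ s ≠ 1 := fun h => by
      rw [hφapp, conjPSL_eq_one_iff hn2] at h
      obtain ⟨a, ha⟩ := h
      have e0 := congrFun (congrFun ha i₀) i₀
      have e2 := congrFun (congrFun ha i₂) i₂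
      change Matrix.diagonal d i₀ i₀ = _ at e0
      change Matrix.diagonal d i₂ i₂ = _ at e2
      simp [d, h02, h12] at e0 e2
      exact h20 (by linear_combination e2 - e0)
    have hs2 : s ^ 2 = 1 := by
      refine Subtype.ext (Subtype.ext ?_)
      change Matrix.diagonal d ^ 2 = 1
      rw [Matrix.diagonal_pow, ← Matrix.diagonal_one]
      congr 1
      funext i
      simp only [Pi.pow_apply, d]
      split_ifs <;> ring
    have hord := Subgroup.orderOf_dvd_natCard φ.range ⟨s, rfl⟩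
    rwa [orderOf_eq_prime (p := 2) (show φ s ^ 2 = 1 by rw [← map_pow, hs2, map_one]) hne] at hord
  -- the centraliser without graph part
  have hcen : ∀ (a : GL (Fin n) F) (σ : RingAut F),
      (∀ y, conjPSL a * fieldPSL σ * φ y = φ y * (conjPSL a * fieldPSL σ)) →
      conjPSL a * fieldPSL σ = (1 : MulAut PSL') := by
    intro a σ h
    obtain ⟨⟨l, hl⟩, hρ⟩ := scalar_of_isotropic (ρ := (σ : F →+* F)) (ι := RingHom.id F) (b := a.1) C hn
      a.det_ne_zero fun v hv hvv => by
        obtain ⟨c, hc0, hc⟩ := exists_trace_zero C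
        have hd : (C.σ ∘ v) ⬝ᵥ (c • v) = 0 := by
          rw [dotProduct_smul, dotProduct_comm]
          change c • (∑ i, v i * C.σ (v i)) = 0
          rw [← form_eq C, hvv, smul_zero]
        have hmat : ((utv C v c hvv hc).1.1 : Matrix (Fin n) (Fin n) F) = 1 + vecMulVec (c • v) (C.σ ∘ v) :=
          Matrix.ext_iff_mulVec.2 fun x => by
            rw [utv_mulVec, Matrix.add_mulVec, Matrix.one_mulVec, Matrix.vecMulVec_mulVec, form_eq C]
            funext i
            simp only [Pi.add_apply, Pi.smul_apply, smul_eq_mul, op_smul_eq_smul, dotProduct, Function.comp_apply]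
            rw [Finset.sum_congr rfl fun j _ => mul_comm (C.σ (v j)) (x j)]
            ring
        have hp := transvection_pow (r := r) (v := c • v) (φ := C.σ ∘ v) hd
        rw [← hmat] at hp
        have hk : ((utv C v c hvv hc).1.1 - 1) ^ 1 = vecMulVec (c • v) (C.σ ∘ v) := by
          rw [pow_one, hmat, add_sub_cancel_left]
        obtain ⟨k, hk'⟩ := semi_of_commute hn2 (a := a) (σ := σ)
          (X := SpecialLinearGroup.toGL (utv C v c hvv hc).1) (h (utv C v c hvv hc))
        obtain ⟨b', hb'⟩ := map_line (ρ := (σ : F →+* F)) (ι := RingHom.id F) (b := a.1) a.det_ne_zero hp hp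
          ⟨k, by
            rw [show (utv C v c hvv hc).1.1.map (RingHom.id F) = (utv C v c hvv hc).1.1 from Matrix.ext fun i j => rfl]
            exact hk'⟩ hk hk
          (fun h0 => hv (funext fun i => C.σ.injective ((congrFun h0 i).trans (map_zero _).symm)))
        rw [semi_smul, show ((RingHom.id F) ∘ (c • v)) = c • ((RingHom.id F) ∘ v) from rfl, smul_smul] at hb'
        refine ⟨b' * c / (σ : F →+* F) c, ?_⟩
        rw [div_eq_inv_mul, ← smul_smul, ← hb', inv_smul_smul₀ ((map_ne_zero _).2 hc0)]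
    rw [conjPSL_eq_one_of_scalar hl, one_mul,
      show σ = 1 from RingEquiv.ext fun x => RingHom.congr_fun hρ x, map_one]
  refine CfsgLib.LocalBalance.core_eq_bot 2 A _ (conjPSL (F := F) (n := n)).range φ.range
    (range_conjPSL_normal hn2) ?_ ?_ ?_ ?_ ?_
  · rintro _ ⟨y, rfl⟩
    exact ⟨_, rfl⟩
  · rintro _ ⟨y, rfl⟩
    refine ⟨?_, Subgroup.mem_centralizer_singleton_iff.2 (hcomm y)⟩
    rw [hφapp, conjPSL_toGL]
    exact hinn _
  · intro x hx
    obtain ⟨a, σ, b, rfl, -⟩ := exists_decomposition'' hn2 x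
    cases b with
    | false =>
      rw [graphIf_false, mul_one] at hx ⊢
      rw [hcen a σ fun y => hx _ ⟨y, rfl⟩, one_pow]
    | true =>
      rw [graphIf_true] at hx ⊢
      have hprod : conjPSL a * fieldPSL σ * graphPSL * (fieldPSL τ * graphPSL) =
          (conjPSL a * fieldPSL (σ * τ) : MulAut PSL') := by
        rw [mul_assoc _ graphPSL, ← mul_assoc graphPSL, graphPSL_mul_fieldPSL, mul_assoc (fieldPSL τ),
          graphPSL_mul_self, mul_one, map_mul, mul_assoc]
      have h3 : conjPSL a * fieldPSL σ * graphPSL * (fieldPSL τ * graphPSL) = (1 : MulAut PSL') := by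
        rw [hprod]
        refine hcen _ _ fun y => ?_
        rw [← hprod, mul_assoc, ← hcomm, ← mul_assoc, hx _ ⟨y, rfl⟩, mul_assoc]
      rw [eq_inv_of_mul_eq_one_left h3, inv_pow, hsq, inv_one]
  · rintro _ ⟨a, rfl⟩ ha _ ⟨y, rfl⟩
    obtain ⟨u, w, hu, e⟩ := exists_unitary_of_commute hn2 hτ hτ2 ha
    have hmem' : SpecialLinearGroup.toGL (conjSL u y.1) ∈ Cfsg.GU n F q := by
      rw [show SpecialLinearGroup.toGL (conjSL u y.1) = u * SpecialLinearGroup.toGL y.1 * u⁻¹ from Units.ext rfl]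
      exact mul_mem (mul_mem ((hmem u).2 hu) y.2) (inv_mem ((hmem u).2 hu))
    refine ⟨⟨conjSL u y.1, hmem'⟩, ?_⟩
    rw [conjPSL_eq_of_smul e, hφapp, hφapp, ← map_inv, ← map_mul, ← map_mul]
    exact congrArg conjPSL (Units.ext rfl)
  · intro M hM hMR hMp
    exact CfsgLib.LocalBalance.eq_bot_of_simple φ CfsgLib.AutPSU.proj CfsgLib.AutPSU.proj_surjective hker hR M hM hMR hMp

/-- Local balance for a non-inner-diagonal automorphism of prime order. -/
theorem balance {r : ℕ} [Fact r.Prime] [CharP F r] (hn : 2 ≤ n) (A : Subgroup (MulAut PSL'))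
    (hinn : ∀ k : PSL', MulAut.conj k ∈ A) (p : ℕ) [Fact p.Prime] (hpr : p ≠ r) (β : MulAut PSL')
    (hord : orderOf β = p) (hnot : ¬ Cfsg.IsInnerDiagonalAutPSL β) :
    Cfsg.pPrimeCore p ↥(A ⊓ Subgroup.centralizer {β}) ≠ ⊥ ↔
      ((∃ γ φ : MulAut PSL', Cfsg.IsInnerDiagonalAutPSL γ ∧ Cfsg.IsFieldAutPSL φ ∧ β = φ.trans γ) ∧
        Nat.Coprime p (Nat.card ↥(MonoidHom.eqLocus β.toMonoidHom (MonoidHom.id PSL')))) := by
  classical
  haveI : NeZero n := ⟨by omega⟩
  obtain ⟨g, τ, b, rfl, hb2⟩ := exists_decomposition'' hn β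
  obtain ⟨j, hrp, hj⟩ := FiniteField.card F r
  have hA : ∀ (α : MulAut PSL') (x : PSL'), MulAut.conj x ∈ A.map (MulAut.conj α).toMonoidHom := fun α x =>
    ⟨MulAut.conj (α.symm x), hinn _, MulEquiv.ext fun y => by simp⟩
  cases b with
  | false =>
    rw [graphIf_false, mul_one] at hord hnot ⊢
    have hpow : (conjPSL g * fieldPSL τ : MulAut PSL') ^ p = 1 := by rw [← hord]; exact pow_orderOf_eq_one _
    rw [and_iff_right (show ∃ γ φ : MulAut PSL', Cfsg.IsInnerDiagonalAutPSL γ ∧ Cfsg.IsFieldAutPSL φ ∧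
        conjPSL g * fieldPSL τ = φ.trans γ from
      ⟨conjPSL g, fieldPSL τ, isInnerDiagonalAutPSL g, ⟨τ, isStdFieldAutPSL τ⟩, rfl⟩)]
    have hτ1 : τ ≠ 1 := fun h => hnot (by rw [h, map_one, mul_one]; exact isInnerDiagonalAutPSL g)
    have hτp : τ ^ p = 1 := by
      rw [pow_conj_mul_field, mul_eq_one_iff_eq_inv, ← map_inv] at hpow
      exact inv_eq_one.1 (eq_one_of_conjPSL_eq_fieldPSL hn hpow).2
    have hτo : orderOf τ = p := orderOf_eq_prime hτp hτ1
    obtain ⟨hdvd, hfield⟩ := fixed_field_facts.{_, 0} hrp hj τ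
    haveI : Fintype (GaloisField r ((j : ℕ) / p)) := Fintype.ofFinite _
    obtain ⟨ι, hι⟩ := hfield (GaloisField r ((j : ℕ) / p)) (by
      rw [hτo, ← Nat.card_eq_fintype_card, GaloisField.card]
      rw [hτo] at hdvd
      have := Nat.div_pos (Nat.le_of_dvd j.pos hdvd) (Fact.out : p.Prime).pos
      omega)
    obtain ⟨k, hk⟩ := exists_conj_field hn g τ (by rw [hτo]; exact hpow)
    have hx : (conjPSL k)⁻¹ * (conjPSL g * fieldPSL τ) * ((conjPSL k)⁻¹)⁻¹ = (fieldPSL τ : MulAut PSL') := by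
      rw [hk]; group
    rw [← CfsgLib.LocalBalance.core_conj_iff p A (conjPSL k)⁻¹ (conjPSL g * fieldPSL τ),
      ← CfsgLib.LocalBalance.card_eqLocus_conj (conjPSL k)⁻¹ (conjPSL g * fieldPSL τ), hx]
    exact core_field_iff hn hι hpr hτp _ (hA _)
  | true =>
    have hn3 : 3 ≤ n := by
      by_contra hlt
      exact absurd (hb2 (by omega)) (by simp)
    rw [graphIf_true] at hord hnot ⊢
    obtain ⟨χ, -, -, hχ⟩ := exists_partHom (F := F) (n := n) hn3
    have hpow : (conjPSL g * fieldPSL τ * graphPSL : MulAut PSL') ^ p = 1 := by rw [← hord]; exact pow_orderOf_eq_one _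
    have h1 := congrArg χ hpow
    rw [map_pow, map_one, ← graphIf_true, hχ] at h1
    have h2 : boolZ true ^ p = 1 := congrArg Prod.snd h1
    have hp2 : p = 2 := by
      rcases (Fact.out : p.Prime).eq_two_or_odd' with h' | h'
      · exact h'
      · exfalso
        obtain ⟨k, rfl⟩ := h'
        rw [pow_succ, pow_mul, show boolZ true ^ 2 = 1 by decide, one_pow, one_mul] at h2
        exact absurd (boolZ_eq_one.mp h2) (by decide)
    subst hp2
    have hτ2 : τ * τ = 1 := by rw [← pow_two]; exact congrArg Prod.fst h1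
    have hcore : Cfsg.pPrimeCore 2 ↥(A ⊓ Subgroup.centralizer {(conjPSL g * fieldPSL τ * graphPSL : MulAut PSL')}) = ⊥ := by
      rcases eq_or_ne τ 1 with rfl | hτ
      · rw [map_one, mul_one] at hpow ⊢
        exact core_graph hn3 hpr.symm g hpow A hinn
      · obtain ⟨k, hk⟩ := exists_conj_graphField hn3 g τ hτ hτ2 hpow
        have hτo : orderOf τ = 2 := orderOf_eq_prime (by rw [pow_two]; exact hτ2) hτ
        obtain ⟨hdvd, -⟩ := fixed_field_facts.{_, 0} hrp hj τ
        rw [hτo] at hdvd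
        obtain ⟨f, hf⟩ := hdvd
        have hF : Fintype.card F = (r ^ f) ^ 2 := by rw [hj, hf, ← pow_mul, mul_comm 2]
        obtain ⟨C⟩ := CfsgLib.UGeom.nonempty_conj hF
        obtain ⟨σC, hσC⟩ : ∃ σC : RingAut F, ∀ x, σC x = C.σ x :=
          ⟨RingEquiv.ofBijective C.σ ⟨C.σ.injective, fun x => ⟨C.σ x, C.invol x⟩⟩, fun _ => rfl⟩
        have hτC : ∀ x, τ x = C.σ x := fun x => by
          rw [← hσC, involution_unique hτ hτ2
            (show σC ≠ 1 from fun e => C.ne_id (RingHom.ext fun y => by rw [← hσC, e]; rfl))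
            (RingEquiv.ext fun y => by rw [RingAut.mul_apply, hσC, hσC, C.invol]; rfl)]
        by_contra hne
        have hx : (conjPSL k)⁻¹ * (conjPSL g * fieldPSL τ * graphPSL) * ((conjPSL k)⁻¹)⁻¹ =
            (fieldPSL τ * graphPSL : MulAut PSL') := by
          rw [hk]; group
        rw [← ne_eq, ← CfsgLib.LocalBalance.core_conj_iff 2 A (conjPSL k)⁻¹, hx] at hne
        exact hne (core_graphField hn3 hpr.symm C hτC _ (hA _))
    refine iff_of_false (fun h => h hcore) fun h => ?_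
    obtain ⟨γ, φ, hγ, ⟨σ, hφ⟩, e⟩ := h.1
    obtain ⟨g', rfl⟩ := eq_conjPSL_of_isInnerDiagonal hγ
    obtain rfl := eq_fieldPSL_of_isStdField (σ := σ) hφ
    have e' : conjPSL g * fieldPSL τ * graphIf true = (conjPSL g' * fieldPSL σ * graphIf false : MulAut PSL') := by
      rw [graphIf_true, graphIf_false, mul_one]; exact e
    exact absurd (decomposition_unique hn3 e').2.1 (by simp)

end CfsgLib.AutPSL
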